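import Cfsg.Agent.Lib.Helper81.CS3.NGDefs
import Cfsg.Agent.Lib.Helper88.CS3.F4
import Cfsg.Agent.Lib.Helper88.CS3.Syl
import Cfsg.Agent.Lib.Helper84.CS3.Melt
import Cfsg.Agent.Lib.Helper91.CS3.Str
import Cfsg.Agent.Lib.Helper72.CS3.NC
import Cfsg.Agent.Lib.Helper72.CS3.Sq
import Cfsg.Agent.Lib.Helper91.CS3.Ab
import Cfsg.Agent.Lib.Helper45.CS3.Nor
import Cfsg.Agent.Lib.Helper24.CS3.StepA
import Cfsg.Agent.Lib.Helper89.CS3.StepB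
import Cfsg.Agent.Lib.Helper83.CS3.Two
import Cfsg.Agent.Lib.Helper21.CS3.II
import Cfsg.Agent.Lib.Helper4.CS3.Mix
import Cfsg.Agent.Lib.Helper49.CS3.I

/-!
# CS3 (S4284), part NG: all packages composed: `pkgNG : PkgNG`.
-/

set_option autoImplicit false

namespace Cfsg.Agent.Lib.Helper81.CS3

universe u

theorem ng_pkgF4 : PkgF4.{u} := Cfsg.Agent.Lib.Helper88.CS3.pkgF4
theorem ng_pkgSyl : PkgSyl.{u} := Cfsg.Agent.Lib.Helper88.CS3.pkgSyl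
theorem ng_pkgMelt : PkgMelt.{u} := Cfsg.Agent.Lib.Helper84.CS3.pkgMelt
theorem ng_pkgStr : PkgStr.{u} := Cfsg.Agent.Lib.Helper91.CS3.pkgStr ng_pkgF4
theorem ng_pkgNC : PkgNC.{u} := Cfsg.Agent.Lib.Helper72.CS3.pkgNC ng_pkgStr ng_pkgMelt ng_pkgSyl
theorem ng_pkgSq : PkgSq.{u} := Cfsg.Agent.Lib.Helper72.CS3.pkgSq ng_pkgStr ng_pkgNC
theorem ng_pkgAb : PkgAb.{u} := Cfsg.Agent.Lib.Helper91.CS3.pkgAb ng_pkgStr
theorem ng_pkgNor : PkgNor.{u} := Cfsg.Agent.Lib.Helper45.CS3.pkgNor ng_pkgStr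
theorem ng_pkgStepA : PkgStepA.{u} := Cfsg.Agent.Lib.Helper24.CS3.pkgStepA ng_pkgMelt ng_pkgSyl
theorem ng_pkgStepB : PkgStepB.{u} := Cfsg.Agent.Lib.Helper89.CS3.pkgStepB ng_pkgSq ng_pkgStr ng_pkgSyl
theorem ng_pkgTwo : PkgTwo.{u} :=
  Cfsg.Agent.Lib.Helper83.CS3.pkgTwo ng_pkgSyl ng_pkgStr ng_pkgSq ng_pkgAb ng_pkgStepA ng_pkgStepB
theorem ng_pkgII : PkgII.{u} := Cfsg.Agent.Lib.Helper21.CS3.pkgII ng_pkgStr ng_pkgNor ng_pkgSyl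
theorem ng_pkgMix : PkgMix.{u} :=
  Cfsg.Agent.Lib.Helper4.CS3.pkgMix ng_pkgSyl ng_pkgStr ng_pkgNC ng_pkgAb ng_pkgNor ng_pkgStepA
    ng_pkgStepB
theorem ng_pkgI : PkgI.{u} :=
  Cfsg.Agent.Lib.Helper49.CS3.pkgI ng_pkgSyl ng_pkgStr ng_pkgAb ng_pkgStepA ng_pkgStepB

/-- Part NG of S4284: no good element ⟹ normal abelian Hall `π(n)`-subgroup. -/
theorem pkgNG : PkgNG.{u} := pkgNG_of ng_pkgSq ng_pkgTwo ng_pkgII ng_pkgMix ng_pkgI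

end Cfsg.Agent.Lib.Helper81.CS3
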